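import Mathlib

set_option autoImplicit false

/-! # Abstract systems of transvections (McLaughlin's theorem, combinatorial part) -/

namespace Cfsg.Agent.Lib.Root.McL

variable {F V Φ : Type*} [Field F] [AddCommGroup V] [Module F V] [AddCommGroup Φ] [Module F Φ]

/-- An abstract system of transvections `1 + v φ`. -/
structure TS (b : Φ →ₗ[F] V →ₗ[F] F) (X : V → Φ → Prop) : Prop where
  zero : ∀ {v φ}, X v φ → b φ v = 0
  smul_l : ∀ {v φ} (c : F), X v φ → X (c • v) φ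
  smul_r : ∀ {v φ} (c : F), X v φ → X v (c • φ)
  add_l : ∀ {v w φ}, X v φ → X w φ → X (v + w) φ
  add_r : ∀ {v φ ψ}, X v φ → X v ψ → X v (φ + ψ)
  conj : ∀ {v φ w ψ}, X v φ → X w ψ → X (w + b φ w • v) (ψ - b ψ v • φ)
  ni : ∀ {v φ}, X v φ → v ≠ 0 → φ ≠ 0 → ∃ w ψ, X w ψ ∧ b φ w ≠ 0 ∧ b ψ v ≠ 0

/-- A connected component of the non-commuting graph. -/
structure Comp (b : Φ →ₗ[F] V →ₗ[F] F) (X C : V → Φ → Prop) : Prop where
  sub : ∀ {v φ}, C v φ → X v φ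
  ne_l : ∀ {v φ}, C v φ → v ≠ 0
  ne_r : ∀ {v φ}, C v φ → φ ≠ 0
  cl_l : ∀ {v φ w ψ}, C v φ → X w ψ → ψ ≠ 0 → b φ w ≠ 0 → C w ψ
  cl_r : ∀ {v φ w ψ}, C v φ → X w ψ → w ≠ 0 → b ψ v ≠ 0 → C w ψ
  conn : ∀ P : V → Φ → Prop, (∀ v φ w ψ, C v φ → C w ψ → (b φ w ≠ 0 ∨ b ψ v ≠ 0) → P v φ → P w ψ) →
    ∀ v φ w ψ, C v φ → C w ψ → P v φ → P w ψ

variable {b : Φ →ₗ[F] V →ₗ[F] F} {X C : V → Φ → Prop}

theorem ne_l_of {φ : Φ} {v : V} (h : b φ v ≠ 0) : φ ≠ 0 := by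
  rintro rfl; simp at h

theorem ne_r_of {φ : Φ} {v : V} (h : b φ v ≠ 0) : v ≠ 0 := by
  rintro rfl; simp at h

theorem TS.flip (h : TS b X) : TS b.flip (fun φ v => X v φ) where
  zero := h.zero
  smul_l := h.smul_r
  smul_r := h.smul_l
  add_l := h.add_r
  add_r := h.add_l
  conj := fun {φ v ψ w} h1 h2 => by
    have := h.conj (h.smul_l (-1) h1) h2
    simpa [sub_eq_add_neg] using this
  ni := fun h1 h2 h3 => by
    obtain ⟨w, ψ, h4, h5, h6⟩ := h.ni h1 h3 h2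
    exact ⟨ψ, w, h4, h6, h5⟩

theorem Comp.flip (h : Comp b X C) : Comp b.flip (fun φ v => X v φ) (fun φ v => C v φ) where
  sub := h.sub
  ne_l := h.ne_r
  ne_r := h.ne_l
  cl_l := h.cl_r
  cl_r := h.cl_l
  conn := fun P hP φ v ψ w h1 h2 h3 =>
    h.conn (fun v φ => P φ v) (fun v φ w ψ h1 h2 h3 => hP φ v ψ w h1 h2 h3.symm) v φ w ψ h1 h2 h3

namespace TS
variable (h : TS b X)
include h

theorem conj' {v w : V} {φ ψ : Φ} (c : F) (h1 : X v φ) (h2 : X w ψ) :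
    X (w + (c * b φ w) • v) (ψ - (c * b ψ v) • φ) := by
  have := h.conj (h.smul_l c h1) h2
  simpa [smul_smul, mul_comm] using this

theorem of_smul_l {v : V} {φ : Φ} {c : F} (hc : c ≠ 0) (h1 : X (c • v) φ) : X v φ := by
  have := h.smul_l c⁻¹ h1
  rwa [smul_smul, inv_mul_cancel₀ hc, one_smul] at this

/-- commutator rule -/
theorem comm {v w : V} {φ ψ : Φ} (h1 : X v φ) (h2 : X w ψ) (h3 : b φ w ≠ 0) (h4 : b ψ v = 0) :
    X v ψ := by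
  have h5 := h.conj h1 h2
  rw [h4, zero_smul, sub_zero] at h5
  have h6 := h.add_l h5 (h.smul_l (-1) h2)
  refine h.of_smul_l h3 ?_
  convert h6 using 1
  simp

/-- adjacency of points is symmetric -/
theorem sym {v w : V} {φ ψ : Φ} (h1 : X v φ) (h2 : X w ψ) (h3 : b φ w ≠ 0) (hv : v ≠ 0)
    (hψ : ψ ≠ 0) : ∃ ψ', X w ψ' ∧ b ψ' v ≠ 0 := by
  by_cases h4 : b ψ v = 0
  swap
  · exact ⟨ψ, h2, h4⟩
  have h5 := h.comm h1 h2 h3 h4
  obtain ⟨u, β, h6, h7, h8⟩ := h.ni h5 hv hψ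
  by_cases h9 : b β w = 0
  · exact ⟨β, h.comm h2 h6 h7 h9, h8⟩
  have h10 : X (b β w • v + (-b β v) • w) ψ := h.add_l (h.smul_l _ h5) (h.smul_l _ h2)
  have h11 := h.comm h10 h6 h7 (by simp; ring)
  have h12 := h.conj' (b β w / (b β v * b φ w)) h1 h11
  have h13 : b β w / (b β v * b φ w) * (b φ) (b β w • v + -b β v • w) = - b β w := by
    simp [h.zero h1]
    field_simp
  have h14 : b β w • v + -b β v • w + (-b β w) • v = (-b β v) • w := by module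
  rw [h13, h14] at h12
  exact ⟨_, h.of_smul_l (neg_ne_zero.2 h8) h12, by simpa [h.zero h1] using h8⟩

/-- The line through two adjacent points consists of points. -/
theorem line {v w : V} {φ ψ : Φ} (h1 : X v φ) (h2 : X w ψ) (h3 : b φ w ≠ 0) (hψ : ψ ≠ 0) :
    ∃ χ, X (w + v) χ ∧ χ ≠ 0 := by
  have h4 := h.conj' (b φ w)⁻¹ h1 h2
  rw [inv_mul_cancel₀ h3, one_smul] at h4
  refine ⟨_, h4, fun h5 => hψ ?_⟩
  have h6 := congrArg (fun χ => b χ w) h5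
  simp [h.zero h2, h3] at h6
  simpa [h6] using h5

end TS

/-- strong adjacency of points -/
def Adj (b : Φ →ₗ[F] V →ₗ[F] F) (X : V → Φ → Prop) (v w : V) : Prop :=
  (∃ φ, X v φ ∧ b φ w ≠ 0) ∧ ∃ ψ, X w ψ ∧ b ψ v ≠ 0

theorem Adj.symm {v w : V} (h : Adj b X v w) : Adj b X w v := ⟨h.2, h.1⟩

theorem TS.adj (h : TS b X) {v w : V} {φ ψ : Φ} (h1 : X v φ) (h2 : X w ψ) (h3 : b φ w ≠ 0)
    (hv : v ≠ 0) (hψ : ψ ≠ 0) : Adj b X v w :=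
  ⟨⟨φ, h1, h3⟩, h.sym h1 h2 h3 hv hψ⟩

namespace Comp
variable (h : TS b X) (hC : Comp b X C)
include h hC

theorem adj {v w : V} {φ ψ : Φ} (h1 : C v φ) (h2 : C w ψ) (h3 : b φ w ≠ 0 ∨ b ψ v ≠ 0) :
    Adj b X v w := by
  rcases h3 with h3 | h3
  · exact h.adj (hC.sub h1) (hC.sub h2) h3 (hC.ne_l h1) (hC.ne_r h2)
  · exact (h.adj (hC.sub h2) (hC.sub h1) h3 (hC.ne_l h2) (hC.ne_r h1)).symm

theorem ni {v : V} {φ : Φ} (h1 : C v φ) : ∃ w ψ, C w ψ ∧ b φ w ≠ 0 ∧ b ψ v ≠ 0 := by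
  obtain ⟨w, ψ, h2, h3, h4⟩ := h.ni (hC.sub h1) (hC.ne_l h1) (hC.ne_r h1)
  exact ⟨w, ψ, hC.cl_l h1 h2 (ne_l_of h4) h3, h3, h4⟩

theorem same_l {v : V} {φ φ' : Φ} (h1 : C v φ) (h2 : X v φ') (h3 : φ' ≠ 0) : C v φ' := by
  obtain ⟨w, ψ, h4, -, h6⟩ := hC.ni h h1
  exact hC.cl_l h4 h2 h3 h6

theorem same_r {v v' : V} {φ : Φ} (h1 : C v φ) (h2 : X v' φ) (h3 : v' ≠ 0) : C v' φ :=
  hC.flip.same_l h.flip h1 h2 h3

theorem smul {v : V} {φ : Φ} (h1 : C v φ) {c d : F} (hc : c ≠ 0) (hd : d ≠ 0) :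
    C (c • v) (d • φ) := by
  have h2 : C v (d • φ) := hC.same_l h h1 (h.smul_r d (hC.sub h1)) (smul_ne_zero hd (hC.ne_r h1))
  exact hC.same_r h h2 (h.smul_l c (hC.sub h2)) (smul_ne_zero hc (hC.ne_l h1))

/-- the point graph has diameter at most two -/
theorem diam {v w : V} {φ ψ : Φ} (h1 : C v φ) (h2 : C w ψ) : ∃ u, Adj b X v u ∧ Adj b X u w := by
  refine hC.conn (fun w _ => ∃ u, Adj b X v u ∧ Adj b X u w) ?_ v φ w ψ h1 h2 ?_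
  · rintro y η z ζ hy hz hyz ⟨a, ha1, ha2⟩
    have hyz' := hC.adj h hy hz hyz
    by_cases h3 : Adj b X a z
    · exact ⟨a, ha1, h3⟩
    by_cases h4 : Adj b X v y
    · exact ⟨y, h4, hyz'⟩
    obtain ⟨⟨α, hα, hα'⟩, -⟩ := ha2
    obtain ⟨⟨φ', hφ', hφa⟩, -⟩ := ha1
    obtain ⟨-, ⟨ζ', hζ', hζy⟩⟩ := hyz'
    obtain ⟨χ, hχ, hχ0⟩ := h.line hα (hC.sub hy) hα' (hC.ne_r hy)
    have h5 : b φ' y = 0 := by
      by_contra h5
      exact h4 (h.adj hφ' (hC.sub hy) h5 (hC.ne_l h1) (hC.ne_r hy))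
    have h6 : b ζ' a = 0 := by
      by_contra h6
      exact h3 (h.adj hζ' hα h6 (hC.ne_l hz) (ne_l_of hα')).symm
    exact ⟨y + a, h.adj hφ' hχ (by simpa [h5] using hφa) (hC.ne_l h1) hχ0,
      (h.adj hζ' hχ (by simpa [h6] using hζy) (hC.ne_l hz) hχ0).symm⟩
  · obtain ⟨w, ψ, h4, h5, h6⟩ := hC.ni h h1
    have := hC.adj h h1 h4 (.inl h5)
    exact ⟨w, this, this.symm⟩

end Comp

/-! ### The linear case -/

/-- `v` has at least a two dimensional space of axes -/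
def Big (b : Φ →ₗ[F] V →ₗ[F] F) (X : V → Φ → Prop) (v : V) : Prop :=
  ∀ u, ∃ δ, δ ≠ 0 ∧ X v δ ∧ b δ u = 0

theorem TS.big (h : TS b X) {w v : V} {δ ψ : Φ} (h1 : X w δ) (h2 : X w ψ) (h3 : δ ≠ 0)
    (h4 : b δ v = 0) (h5 : b ψ v ≠ 0) : Big b X w := by
  intro u
  by_cases h6 : b δ u = 0
  · exact ⟨δ, h3, h1, h6⟩
  refine ⟨ψ + (-(b ψ u / b δ u)) • δ, ne_l_of (b := b) (v := v) (by simpa [h4] using h5),
    h.add_r h2 (h.smul_r _ h1), ?_⟩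
  simp
  field_simp
  simp

theorem TS.big_adj (h : TS b X) {v w : V} (h1 : Big b X v) (h2 : Adj b X v w) : Big b X w := by
  obtain ⟨δ, h3, h4, h5⟩ := h1 w
  obtain ⟨-, ψ, h6, h7⟩ := h2
  exact h.big (h.comm h6 h4 h7 h5) h6 h3 (h.zero h4) h7

/-- the linear case -/
def Lin (b : Φ →ₗ[F] V →ₗ[F] F) (C : V → Φ → Prop) : Prop :=
  ∃ v φ w ψ, C v φ ∧ C w ψ ∧ b φ w ≠ 0 ∧ b ψ v = 0

theorem Lin.flip (h : Lin b C) : Lin b.flip (fun φ v => C v φ) := by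
  obtain ⟨v, φ, w, ψ, h1, h2, h3, h4⟩ := h
  exact ⟨ψ, w, φ, v, h2, h1, h3, h4⟩

namespace Comp
variable (h : TS b X) (hC : Comp b X C) (hL : Lin b C)
include h hC hL

theorem big {w : V} {ψ : Φ} (h1 : C w ψ) : Big b X w := by
  obtain ⟨v, φ, w', ψ', h2, h3, h4, h5⟩ := hL
  have h6 : Big b X v := h.big (h.comm (hC.sub h2) (hC.sub h3) h4 h5) (hC.sub h2) (hC.ne_r h3)
    (h.zero (hC.sub h3)) h4
  obtain ⟨u, h7, h8⟩ := hC.diam h h2 h1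
  exact h.big_adj (h.big_adj h6 h7) h8

theorem adj_or {v w : V} {φ ψ : Φ} (h1 : C v φ) (h2 : C w ψ) :
    (∃ c : F, w = c • v) ∨ ∃ φ', X v φ' ∧ b φ' w ≠ 0 := by
  by_contra hcon
  push Not at hcon
  obtain ⟨hc1, hc2⟩ := hcon
  obtain ⟨u, ⟨-, χ, h3, h4⟩, -, ψ', h5, h6⟩ := hC.diam h h1 h2
  obtain ⟨δ, h7, h8, h9⟩ := hC.big h hL h1 u
  have h10 := h.comm h3 h8 h4 h9
  have h11 := h.comm h5 h10 h6 (hc2 δ h8)
  obtain ⟨t, τ, h12, h13, h14⟩ := h.ni h8 (hC.ne_l h1) h7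
  have h15 : X (b τ w • v + (-b τ v) • w) δ := h.add_l (h.smul_l _ h8) (h.smul_l _ h11)
  have h16 := h.comm h15 h12 h13 (by simp; ring)
  have h17 : b τ w • v + (-b τ v) • w ≠ 0 := by
    intro h0
    refine hc1 (b τ w / b τ v) ?_
    have : b τ v • w = b τ w • v := by
      rw [neg_smul, add_neg_eq_zero] at h0; exact h0.symm
    rw [div_eq_inv_mul, mul_smul, ← this, smul_smul, inv_mul_cancel₀ h14, one_smul]
  obtain ⟨φ', h18, h19⟩ := h.sym h16 h8 h14 h17 h7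
  simp [h.zero h18, hc2 φ' h18] at h19

theorem lin_point {x : V} (hx : x ∈ Submodule.span F {v | ∃ φ, C v φ}) (hx0 : x ≠ 0) :
    ∃ φ, C x φ := by
  suffices hs : x = 0 ∨ ∃ φ, C x φ from hs.resolve_left hx0
  clear hx0
  induction hx using Submodule.span_induction with
  | mem x hx => exact .inr hx
  | zero => exact .inl rfl
  | add x y _ _ hx hy =>
    rcases hx with rfl | ⟨φ, hx⟩
    · simpa using hy
    rcases hy with rfl | ⟨ψ, hy⟩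
    · exact .inr ⟨φ, by simpa using hx⟩
    by_cases h0 : x + y = 0
    · exact .inl h0
    right
    rcases hC.adj_or h hL hx hy with ⟨c, rfl⟩ | ⟨φ', h1, h2⟩
    · exact ⟨φ, hC.same_r h hx (h.add_l (hC.sub hx) (h.smul_l c (hC.sub hx))) h0⟩
    · obtain ⟨χ, h3, h4⟩ := h.line h1 (hC.sub hy) h2 (hC.ne_r hy)
      rw [add_comm] at h3
      exact ⟨χ, hC.cl_l (hC.same_l h hx h1 (ne_l_of h2)) h3 h4 (by simpa [h.zero h1] using h2)⟩
  | smul c x _ hx =>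
    rcases hx with rfl | ⟨φ, hx⟩
    · simp
    by_cases hc : c = 0
    · simp [hc]
    exact .inr ⟨φ, by simpa using hC.smul h hx hc one_ne_zero⟩

theorem lin_axis {χ : Φ} (hx : χ ∈ Submodule.span F {φ | ∃ v, C v φ}) (hx0 : χ ≠ 0) :
    ∃ v, C v χ :=
  hC.flip.lin_point h.flip hL.flip hx hx0

theorem lin_all {x : V} (hx : x ∈ Submodule.span F {v | ∃ φ, C v φ}) (hx0 : x ≠ 0)
    {χ : Φ} (hχ : χ ∈ Submodule.span F {φ | ∃ v, C v φ}) (hχ0 : χ ≠ 0) (h0 : b χ x = 0) :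
    C x χ := by
  obtain ⟨φ, h1⟩ := hC.lin_point h hL hx hx0
  obtain ⟨w, h2⟩ := hC.lin_axis h hL hχ hχ0
  refine hC.same_l h h1 ?_ hχ0
  rcases hC.adj_or h hL h1 h2 with ⟨c, rfl⟩ | ⟨φ', h3, h4⟩
  · exact h.of_smul_l (fun hc => hC.ne_l h2 (by simp [hc])) (hC.sub h2)
  · exact h.comm h3 (hC.sub h2) h4 h0

end Comp

end Cfsg.Agent.Lib.Root.McL
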