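import Cfsg.Agent.Lib.Root.McL1
import Cfsg.Agent.Lib.GL.SLNormal

set_option autoImplicit false

/-! # McLaughlin's theorem: the symplectic case, and generation of `SL` and `Sp` -/

namespace Cfsg.Agent.Lib.Root.McL

variable {F V Φ : Type*} [Field F] [AddCommGroup V] [Module F V] [AddCommGroup Φ] [Module F Φ]

theorem sp_fill {M : Type*} [AddCommGroup M] [Module F M] (B : M →ₗ[F] M →ₗ[F] F) (Γ : Set M)
    (skew : ∀ x ∈ Γ, ∀ y ∈ Γ, B x y = -B y x) (alt : ∀ x ∈ Γ, B x x = 0)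
    (smul : ∀ x ∈ Γ, ∀ c : F, c ≠ 0 → c • x ∈ Γ)
    (add : ∀ x ∈ Γ, ∀ y ∈ Γ, B x y ≠ 0 → x + y ∈ Γ)
    (diam : ∀ x ∈ Γ, ∀ y ∈ Γ, ∃ a ∈ Γ, B x a ≠ 0 ∧ B y a ≠ 0)
    (three : ∀ a : F, ∃ c, c ≠ 0 ∧ c ≠ a) {x : M} (hx : x ∈ Submodule.span F Γ)
    (hx0 : ∃ y ∈ Γ, B x y ≠ 0) : x ∈ Γ := by
  have neg : ∀ x ∈ Γ, -x ∈ Γ := fun x hx => by simpa using smul x hx (-1) (by simp)
  have step1 : ∀ v ∈ Γ, ∀ w ∈ Γ, ∀ a ∈ Γ, B v a ≠ 0 → B w a ≠ 0 → B (v + w) a ≠ 0 → v + w ∈ Γ := by
    intro v hv w hw a ha h1 h2 h3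
    by_cases h4 : B v w = 0
    swap
    · exact add v hv w hw h4
    have h5 := add _ (add v hv a ha h1) w hw (by simpa [h4, skew a ha w hw] using h2)
    have h6 := add _ h5 _ (neg a ha) (by
      simp only [map_add, map_neg, LinearMap.add_apply, alt a ha] at h3 ⊢
      intro h; apply h3; linear_combination -h)
    convert h6 using 1
    abel
  have step2 : ∀ v ∈ Γ, ∀ w ∈ Γ, ∀ a ∈ Γ, B v a ≠ 0 → B (v + w) a ≠ 0 → v + w ∈ Γ := by
    intro v hv w hw a ha h1 h3
    by_cases h2 : B w a = 0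
    swap
    · exact step1 v hv w hw a ha h1 h2 h3
    obtain ⟨b, hb, h4, h5⟩ := diam v hv w hw
    by_cases h6 : B (v + w) b = 0
    swap
    · exact step1 v hv w hw b hb h4 h5 h6
    obtain ⟨c, hc0, hc⟩ := three (-B v b / B v a)
    have h7 : B v (b + c • a) ≠ 0 := by
      simp only [map_add, map_smul, smul_eq_mul]
      intro h
      apply hc
      field_simp
      linear_combination h
    have h8 : b + c • a ∈ Γ := by
      refine step1 b hb _ (smul a ha c hc0) v hv (by simpa [skew b hb v hv] using h4)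
        (by simpa [skew a ha v hv, hc0] using h1) ?_
      simp only [map_add, map_smul, smul_eq_mul, LinearMap.add_apply, LinearMap.smul_apply,
        skew b hb v hv, skew a ha v hv] at h7 ⊢
      intro h; apply h7; linear_combination -h
    refine step1 v hv w hw _ h8 h7 (by simpa [h2] using h5) ?_
    rw [map_add, h6, zero_add, map_smul, smul_eq_mul]
    exact mul_ne_zero hc0 h3
  let R : M → Prop := fun r => (∀ y ∈ Γ, B r y = 0) ∧ ∀ y ∈ Γ, y + r ∈ Γ
  have key : ∀ v ∈ Γ, ∀ w ∈ Γ, v + w ∈ Γ ∨ R (v + w) := by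
    intro v hv w hw
    by_cases h1 : ∃ a ∈ Γ, B (v + w) a ≠ 0
    · obtain ⟨a, ha, h1⟩ := h1
      left
      by_cases h2 : B v a = 0
      · rw [add_comm] at h1 ⊢
        exact step2 w hw v hv a ha (by simpa [h2] using h1) h1
      · exact step2 v hv w hw a ha h2 h1
    push Not at h1
    refine .inr ⟨h1, ?_⟩
    have h2 : B v w = 0 := by simpa [alt w hw] using h1 w hw
    have h3 : ∀ y ∈ Γ, B y v ≠ 0 → y + (v + w) ∈ Γ := by
      intro y hy h3
      rw [← add_assoc]
      refine add _ (add y hy v hv h3) w hw ?_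
      have := h1 y hy
      simp only [map_add, LinearMap.add_apply, h2, skew v hv y hy, skew w hw y hy] at this ⊢
      intro h; apply h3; linear_combination -this - h
    intro y hy
    by_cases h4 : B y v = 0
    swap
    · exact h3 y hy h4
    obtain ⟨a, ha, h5, h6⟩ := diam y hy v hv
    have h7 := h3 _ (add y hy a ha h5) (by simpa [h4, skew a ha v hv] using h6)
    have h8 := add _ h7 _ (neg a ha) (by
      rw [map_add, LinearMap.add_apply, map_neg, map_neg, h1 a ha]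
      simpa [alt a ha] using h5)
    convert h8 using 1
    abel
  suffices hs : x ∈ Γ ∨ R x by
    obtain ⟨y, hy, h⟩ := hx0
    exact hs.resolve_right fun h' => h (h'.1 y hy)
  clear hx0
  induction hx using Submodule.span_induction with
  | mem x hx => exact .inl hx
  | zero => exact .inr ⟨by simp, by simp⟩
  | add x y _ _ hx hy =>
    rcases hx with hx | hx <;> rcases hy with hy | hy
    · exact key x hx y hy
    · exact .inl (hy.2 x hx)
    · exact .inl (add_comm x y ▸ hx.2 y hy)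
    · exact .inr ⟨fun z hz => by simp [hx.1 z hz, hy.1 z hz], fun z hz => by
        rw [← add_assoc]; exact hy.2 _ (hx.2 z hz)⟩
  | smul c x _ hx =>
    by_cases hc : c = 0
    · exact .inr ⟨by simp [hc], by simp [hc]⟩
    rcases hx with hx | hx
    · exact .inl (smul x hx c hc)
    · refine .inr ⟨fun z hz => by simp [hx.1 z hz], fun z hz => ?_⟩
      have := smul _ (hx.2 _ (smul z hz c⁻¹ (inv_ne_zero hc))) c hc
      rwa [smul_add, smul_smul, mul_inv_cancel₀ hc, one_smul] at this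

variable {b : Φ →ₗ[F] V →ₗ[F] F} {X C : V → Φ → Prop}

/-- The symplectic case. -/
theorem Comp.symp (h : TS b X) (hC : Comp b X C) (hL : ¬ Lin b C) {v₀ : V} {φ₀ : Φ} (h0 : C v₀ φ₀)
    (three : ∀ a : F, ∃ c, c ≠ 0 ∧ c ≠ a) :
    ∃ U : Submodule F (V × Φ), (∀ x ∈ U, b x.2 x.1 = 0) ∧
      (∀ v φ, C v φ → ∃ c : F, c ≠ 0 ∧ (v, c • φ) ∈ U) ∧
      U ≤ Submodule.span F {x | C x.1 x.2} ∧
      ∀ x ∈ U, (∃ y ∈ U, b x.2 y.1 ≠ 0) → C x.1 x.2 := by
  have hS : ∀ {v φ w ψ}, C v φ → C w ψ → b φ w ≠ 0 → b ψ v ≠ 0 := fun h1 h2 h3 h4 =>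
    hL ⟨_, _, _, _, h1, h2, h3, h4⟩
  have hadd : ∀ {v φ w ψ}, C v φ → C w ψ → b φ w ≠ 0 → b φ w + b ψ v = 0 → ∀ d : F,
      C (w + d • v) (ψ + d • φ) := by
    intro v φ w ψ h1 h2 h3 h4 d
    have h5 := h.conj' (d / b φ w) (hC.sub h1) (hC.sub h2)
    have h6 : d / b φ w * b ψ v = -d := by
      rw [eq_neg_of_add_eq_zero_right h4]; field_simp
    rw [div_mul_cancel₀ _ h3, h6, neg_smul, sub_neg_eq_add] at h5
    exact hC.cl_l h1 h5 (ne_l_of (b := b) (v := v)
      (by simpa [h.zero (hC.sub h1)] using hS h1 h2 h3)) (by simpa [h.zero (hC.sub h1)] using h3)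
  have hdiam : ∀ {v φ w ψ}, C v φ → C w ψ → ∃ u χ, C u χ ∧ b φ u ≠ 0 ∧ b ψ u ≠ 0 := by
    intro v φ w ψ h1 h2
    obtain ⟨u, ⟨⟨φ', -, h3⟩, χ, h4, h5⟩, ⟨χ', h6, h7⟩, -⟩ := hC.diam h h1 h2
    have h8 := hC.cl_r h1 h4 (ne_r_of h3) h5
    exact ⟨u, χ, h8, hS h8 h1 h5, hS (hC.cl_r h2 h6 (ne_r_of h3) h7) h2 h7⟩
  have hnorm : ∀ {v φ w ψ}, C v φ → C w ψ → b φ w ≠ 0 →
      ∃ c : F, c ≠ 0 ∧ C w (c • ψ) ∧ b φ w + b (c • ψ) v = 0 := by
    intro v φ w ψ h1 h2 h3
    have h4 := hS h1 h2 h3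
    have h5 : -b φ w / b ψ v ≠ 0 := div_ne_zero (neg_ne_zero.2 h3) h4
    refine ⟨_, h5, by simpa using hC.smul h h2 one_ne_zero h5, ?_⟩
    simp
    field_simp
    simp
  let B : (V × Φ) →ₗ[F] (V × Φ) →ₗ[F] F := b.compl₁₂ (LinearMap.snd F V Φ) (LinearMap.fst F V Φ)
  have hB : ∀ x y, B x y = b x.2 y.1 := fun x y => rfl
  let N : Set (V × Φ) := {y | C y.1 y.2 ∧ b φ₀ y.1 ≠ 0 ∧ b φ₀ y.1 + b y.2 v₀ = 0} ∪ {(v₀, φ₀)}
  have hN : ∀ x ∈ N, ∀ y ∈ N, (B + B.flip) x y = 0 := by
    rintro ⟨w, ψ⟩ (⟨h1, h2, h3⟩ | h1) ⟨u, χ⟩ (⟨h4, h5, h6⟩ | h4)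
    · simp only at h1 h2 h3 h4 h5 h6
      have h7 := hS h0 h1 h2
      have h8 := hadd h0 h4 h5 h6 (-b ψ u / b ψ v₀)
      have h9 : b (χ + (-b ψ u / b ψ v₀) • φ₀) w = 0 := by
        by_contra h9
        refine hS h8 h1 h9 ?_
        simp
        field_simp
        simp
      simp only [map_add, map_smul, LinearMap.add_apply, LinearMap.smul_apply, smul_eq_mul] at h9
      simp only [LinearMap.add_apply, LinearMap.flip_apply, hB]
      rw [eq_neg_of_add_eq_zero_left h3] at h9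
      field_simp at h9
      linear_combination h9
    · obtain ⟨rfl, rfl⟩ := Prod.ext_iff.1 (Set.mem_singleton_iff.1 h4)
      simpa [hB, add_comm] using h3
    · obtain ⟨rfl, rfl⟩ := Prod.ext_iff.1 (Set.mem_singleton_iff.1 h1)
      simpa [hB] using h6
    · obtain ⟨rfl, rfl⟩ := Prod.ext_iff.1 (Set.mem_singleton_iff.1 h1)
      obtain ⟨rfl, rfl⟩ := Prod.ext_iff.1 (Set.mem_singleton_iff.1 h4)
      simp [hB, h.zero (hC.sub h0)]
  have hU0 : ∀ x ∈ Submodule.span F N, ∀ y ∈ Submodule.span F N, (B + B.flip) x y = 0 := by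
    intro x hx y hy
    induction hx using Submodule.span_induction with
    | mem x hx =>
      induction hy using Submodule.span_induction with
      | mem y hy => exact hN x hx y hy
      | zero => simp
      | add y z _ _ hy hz => rw [map_add, hy, hz, add_zero]
      | smul c y _ hy => rw [map_smul, hy, smul_zero]
    | zero => simp
    | add x z _ _ hx hz => rw [map_add, LinearMap.add_apply, hx, hz, add_zero]
    | smul c x _ hx => rw [map_smul, LinearMap.smul_apply, hx, smul_zero]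
  let Γ : Set (V × Φ) := {x | C x.1 x.2 ∧ x ∈ Submodule.span F N}
  have hΓ : Submodule.span F Γ ≤ Submodule.span F N := Submodule.span_le.2 fun x hx => hx.2
  have hskew : ∀ x ∈ Submodule.span F Γ, ∀ y ∈ Submodule.span F Γ, B x y = -B y x :=
    fun x hx y hy => eq_neg_of_add_eq_zero_left (hU0 x (hΓ hx) y (hΓ hy))
  have hg3 : ∀ v φ, C v φ → ∃ c : F, c ≠ 0 ∧ (v, c • φ) ∈ Γ := by
    intro u χ h1
    by_cases h2 : b φ₀ u = 0
    swap
    · obtain ⟨c, hc, h3, h4⟩ := hnorm h0 h1 h2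
      exact ⟨c, hc, h3, Submodule.subset_span (.inl ⟨h3, h2, h4⟩)⟩
    obtain ⟨a, α, h3, h4, h5⟩ := hdiam h0 h1
    obtain ⟨d, hd, h6, h7⟩ := hnorm h0 h3 h4
    have h8 := hS h1 h6 h5
    obtain ⟨c, hc, h9, h10⟩ := hnorm h6 h1 h8
    have h11 := hadd h6 h9 h8 h10 1
    have h12 : b χ v₀ = 0 := by
      by_contra h12
      exact hS h1 h0 h12 h2
    have h13 : (u + (1 : F) • a, c • χ + (1 : F) • d • α) ∈ Submodule.span F N :=
      Submodule.subset_span (.inl ⟨h11, by simpa [h2] using h4, by simpa [h2, h12] using h7⟩)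
    have h14 : (a, d • α) ∈ Submodule.span F N := Submodule.subset_span (.inl ⟨h6, h4, h7⟩)
    exact ⟨c, hc, h9, by simpa using Submodule.sub_mem _ h13 h14⟩
  refine ⟨Submodule.span F Γ, fun x hx => ?_, fun v φ h1 => ?_,
    Submodule.span_mono fun x hx => hx.1, fun x hx ⟨y, hy, hxy⟩ => ?_⟩
  · rw [← hB]
    induction hx using Submodule.span_induction with
    | mem x hx => exact h.zero (hC.sub hx.1)
    | zero => simp
    | add x y hx' hy' hx hy => simp [hx, hy, hskew x hx' y hy']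
    | smul c x _ hx => simp [hx]
  · obtain ⟨c, hc, h2⟩ := hg3 v φ h1
    exact ⟨c, hc, Submodule.subset_span h2⟩
  · refine (sp_fill B Γ (fun x hx y hy => hskew x (Submodule.subset_span hx) y
      (Submodule.subset_span hy)) (fun x hx => h.zero (hC.sub hx.1))
      (fun x hx c hc => ⟨hC.smul h hx.1 hc hc, Submodule.smul_mem _ _ hx.2⟩)
      (fun x hx y hy hxy => ⟨?_, Submodule.add_mem _ hx.2 hy.2⟩) (fun x hx y hy => ?_)
      three hx ?_).1
    · have := hadd hx.1 hy.1 hxy (hU0 x hx.2 y hy.2) 1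
      simpa [add_comm] using this
    · obtain ⟨u, χ, h1, h2, h3⟩ := hdiam hx.1 hy.1
      obtain ⟨c, -, h4⟩ := hg3 u χ h1
      exact ⟨_, h4, h2, h3⟩
    · by_contra hcon
      push Not at hcon
      refine hxy ?_
      rw [← hB]
      clear hxy
      induction hy using Submodule.span_induction with
      | mem y hy => exact hcon y hy
      | zero => simp
      | add y z _ _ hy hz => rw [map_add, hy, hz, add_zero]
      | smul c y _ hy => rw [map_smul, hy, smul_zero]

/-! ### Generation -/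

theorem sl_gen [FiniteDimensional F V] (G : Subgroup (V ≃ₗ[F] V))
    (hG : ∀ (v : V) (f : Module.Dual F V) (h : f v = 0), LinearEquiv.transvection h ∈ G)
    {g : V ≃ₗ[F] V} (hg : LinearMap.det (g : V →ₗ[F] V) = 1) : g ∈ G := by
  classical
  let e := Module.finBasis F V
  let A : Matrix.SpecialLinearGroup (Fin (Module.finrank F V)) F :=
    ⟨LinearMap.toMatrix e e g, by rwa [LinearMap.det_toMatrix]⟩
  have key : ∀ A : Matrix.SpecialLinearGroup (Fin (Module.finrank F V)) F,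
      ∃ g ∈ G, (g : V →ₗ[F] V) = Matrix.toLin e e A.1 := by
    intro A
    cases subsingleton_or_nontrivial (Fin (Module.finrank F V))
    · refine ⟨1, G.one_mem, ?_⟩
      rw [Subsingleton.elim A 1]
      simp
    refine GL.SLNormal.SL_induction (fun A => ∃ g ∈ G, (g : V →ₗ[F] V) = Matrix.toLin e e A.1)
      (fun i j hij c => ?_) ?_ A
    · refine ⟨_, hG (c • e i) (e.coord j) (by simp [Finsupp.single_apply, hij]), ?_⟩
      apply (LinearMap.toMatrix e e).injective
      rw [LinearMap.toMatrix_toLin]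
      ext k l
      simp [LinearMap.toMatrix_apply, LinearMap.transvection.apply,
        Matrix.SpecialLinearGroup.transvection_coe, Finsupp.single_apply, Matrix.one_apply,
        Matrix.single_apply]
      congr 1
      · simp only [eq_comm]
      by_cases h1 : l = j
      · subst h1
        simp [Finsupp.single_apply]
      · simp [h1, Ne.symm h1]
    · rintro A B ⟨g, hg, h1⟩ ⟨g', hg', h2⟩
      refine ⟨g * g', G.mul_mem hg hg', ?_⟩
      rw [Matrix.SpecialLinearGroup.coe_mul, Matrix.toLin_mul e e e, ← h1, ← h2]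
      rfl
  obtain ⟨g', hg', h1⟩ := key A
  have : g' = g := by
    apply LinearEquiv.toLinearMap_injective
    rw [h1]
    simp [A]
  exact this ▸ hg'

theorem sp_gen [FiniteDimensional F V] (B : LinearMap.BilinForm F V) (hA : B.IsAlt)
    (hB : B.Nondegenerate) (G : Subgroup (V ≃ₗ[F] V))
    (hG : ∀ (v : V) (c : F) (h : (c • B v) v = 0), LinearEquiv.transvection h ∈ G)
    {g : V ≃ₗ[F] V} (hg : ∀ x y, B (g x) (g y) = B x y) : g ∈ G := by
  have hsw : ∀ x y, B x y = -B y x := fun x y => (hA.neg_eq y x).symm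
  have h0 : ∀ v (c : F), (c • B v) v = 0 := fun v c => by simp [hA.self_eq_zero]
  let T : V → F → V ≃ₗ[F] V := fun v c => LinearEquiv.transvection (h0 v c)
  have hT : ∀ v c x, T v c x = x + (c * B v x) • v := fun v c x => rfl
  have hTi : ∀ v c x y, B (T v c x) (T v c y) = B x y := by
    intro v c x y
    simp only [hT, map_add, map_smul, LinearMap.add_apply, LinearMap.smul_apply, smul_eq_mul,
      hA.self_eq_zero, hsw x v]
    ring
  let fx : (V ≃ₗ[F] V) → Submodule F V := fun g => LinearMap.ker ((g : V →ₗ[F] V) - LinearMap.id)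
  have hfx : ∀ g x, x ∈ fx g ↔ g x = x := fun g x => by simp [fx, sub_eq_zero]
  have hle : ∀ g : V ≃ₗ[F] V, (∀ x y, B (g x) (g y) = B x y) → ∀ v c,
      fx g ≤ fx (T (g v - v) c * g) := by
    intro g hg v c x hx
    rw [hfx] at hx ⊢
    have : B (g v) x = B v x := by rw [← hg v x, hx]
    rw [LinearEquiv.mul_apply, hx, hT, map_sub, LinearMap.sub_apply, this]
    simp
  induction hn : Module.finrank F V - Module.finrank F (fx g)
    using Nat.strong_induction_on generalizing g with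
  | _ n ih =>
  have step : ∀ h : V ≃ₗ[F] V, (∀ x y, B (h x) (h y) = B x y) → fx g ≤ fx h →
      (∃ v, B v (h v) ≠ 0) → h ∈ G := by
    rintro h hh hle' ⟨v, hv⟩
    have h1 : h v ≠ v := fun e => hv (by rw [e, hA.self_eq_zero])
    have hlt : fx h < fx (T (h v - v) (B v (h v))⁻¹ * h) := by
      refine lt_of_le_of_ne (hle h hh v _) fun e => h1 ?_
      rw [← hfx, e, hfx, LinearEquiv.mul_apply, hT, map_sub, LinearMap.sub_apply, hA.self_eq_zero,
        zero_sub, mul_neg, inv_mul_cancel₀ hv]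
      simp
    have h2 := Submodule.finrank_lt_finrank_of_lt (hle'.trans_lt hlt)
    have h3 := Submodule.finrank_le (fx (T (h v - v) (B v (h v))⁻¹ * h))
    have h4 : T (h v - v) (B v (h v))⁻¹ * h ∈ G := by
      refine ih _ ?_ (fun x y => ?_) rfl
      · omega
      · rw [LinearEquiv.mul_apply, LinearEquiv.mul_apply, hTi, hh]
    exact (G.mul_mem_cancel_left (hG _ _ _)).mp h4
  by_cases h1 : ∃ v, B v (g v) ≠ 0
  · exact step g hg le_rfl h1
  push Not at h1
  by_cases h2 : g = 1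
  · exact h2 ▸ G.one_mem
  obtain ⟨x, hx⟩ : ∃ x, g x - x ≠ 0 := by
    by_contra hcon
    push Not at hcon
    exact h2 (LinearEquiv.ext fun x => sub_eq_zero.mp (hcon x))
  have h3 : ∀ u v, B u (g v) = B (g u) v := by
    intro u v
    have := h1 (u + v)
    simp only [map_add, LinearMap.add_apply, h1, hsw v (g u)] at this
    linear_combination this
  obtain ⟨v, hv⟩ : ∃ v, B v (g x - x) ≠ 0 := by
    by_contra hcon
    push Not at hcon
    exact hx (hB.2 _ hcon)
  refine (G.mul_mem_cancel_left (hG (g x - x) 1 (h0 _ _))).mp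
    (step (T (g x - x) 1 * g) (fun x y => ?_) (hle g hg x 1) ⟨v, ?_⟩)
  · rw [LinearEquiv.mul_apply, LinearEquiv.mul_apply, hTi, hg]
  have h4 : B (g x - x) (g v) = B v (g x - x) := by
    rw [hsw, map_sub, map_sub, hg, h3]
    ring
  rw [LinearEquiv.mul_apply, hT, map_add, map_smul, h1, h4, zero_add, one_mul, smul_eq_mul]
  exact mul_ne_zero hv hv

end Cfsg.Agent.Lib.Root.McL
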