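import Cfsg.Agent.Lib.Root.McL2
import Cfsg.Agent.Lib.Root.Inv2

set_option autoImplicit false

/-! # McLaughlin's theorem: the group side -/

namespace Cfsg.Agent.Lib.Root.McL

open Module LinearEquiv

variable {F V : Type*} [Field F] [AddCommGroup V] [Module F V]

attribute [local simp] LinearMap.transvection.apply

/-- The transvection `1 + v φ` lies in `H`. -/
def XH (H : Subgroup (V ≃ₗ[F] V)) (v : V) (φ : Dual F V) : Prop :=
  ∃ h : φ v = 0, transvection h ∈ H

theorem tv_apply {v : V} {φ : Dual F V} (h : φ v = 0) (x : V) : transvection h x = x + φ x • v := rfl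

theorem tv_inv_apply {v : V} {φ : Dual F V} (h : φ v = 0) (x : V) :
    (transvection h)⁻¹ x = x - φ x • v := by
  have : (transvection h)⁻¹ x = x + φ x • (-v) := rfl
  rw [this, smul_neg, sub_eq_add_neg]

theorem tv_conj (g : V ≃ₗ[F] V) {v : V} {φ : Dual F V} (h : φ v = 0)
    (h' : (φ ∘ₗ (g⁻¹ : V ≃ₗ[F] V)) (g v) = 0) :
    g * transvection h * g⁻¹ = transvection h' := by
  ext x
  simp [tv_apply]

theorem tv_ne_one {v : V} {φ : Dual F V} (h : φ v = 0) (hv : v ≠ 0) (hφ : φ ≠ 0) :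
    transvection h ≠ 1 := by
  intro h1
  refine hφ (LinearMap.ext fun x => ?_)
  have := congrArg (fun g : V ≃ₗ[F] V => g x) h1
  simpa [tv_apply, hv] using this

theorem XH.conj {H : Subgroup (V ≃ₗ[F] V)} {v : V} {φ : Dual F V} (h : XH H v φ) {g : V ≃ₗ[F] V}
    (hg : g ∈ H) : XH H (g v) (φ ∘ₗ (g⁻¹ : V ≃ₗ[F] V)) := by
  obtain ⟨h1, h2⟩ := h
  refine ⟨by simpa using h1, ?_⟩
  rw [← tv_conj g h1]
  exact H.mul_mem (H.mul_mem hg h2) (H.inv_mem hg)

/-- The stabiliser of the chain `V ≥ W ≥ R ≥ 0`. -/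
def stab3 (W R : Submodule F V) (hRW : R ≤ W) : Subgroup (V ≃ₗ[F] V) where
  carrier := {g | (∀ x, g x - x ∈ W) ∧ (∀ x ∈ W, g x - x ∈ R) ∧ ∀ x ∈ R, g x = x}
  one_mem' := ⟨by simp, by simp, by simp⟩
  mul_mem' := by
    rintro g h ⟨g1, g2, g3⟩ ⟨h1, h2, h3⟩
    refine ⟨fun x => ?_, fun x hx => ?_, fun x hx => by simp [h3 x hx, g3 x hx]⟩
    · have := W.add_mem (g1 (h x)) (h1 x)
      simpa using this
    · have := R.add_mem (g2 (h x) (by simpa using W.add_mem (h1 x) hx)) (h2 x hx)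
      simpa using this
  inv_mem' := by
    rintro g ⟨g1, g2, g3⟩
    refine ⟨fun x => ?_, fun x hx => ?_, fun x hx => ?_⟩
    · have := W.neg_mem (g1 (g⁻¹ x))
      simpa using this
    · have h1 : g⁻¹ x ∈ W := by simpa using W.sub_mem hx (g1 (g⁻¹ x))
      have := R.neg_mem (g2 _ h1)
      simpa using this
    · apply g.injective
      simp [g3 x hx]

theorem stab3_isPGroup {p : ℕ} [Fact p.Prime] [CharP F p] (hp : 3 ≤ p) (W R : Submodule F V)
    (hRW : R ≤ W) : IsPGroup p (stab3 W R hRW) := by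
  rintro ⟨g, g1, g2, g3⟩
  refine ⟨1, Subtype.ext ?_⟩
  rw [pow_one, SubmonoidClass.coe_pow, OneMemClass.coe_one]
  cases subsingleton_or_nontrivial V
  · exact LinearEquiv.ext fun x => Subsingleton.elim _ _
  have : CharP (Module.End F V) p := charP_of_injective_algebraMap (algebraMap F _).injective p
  set n : Module.End F V := (g : V →ₗ[F] V) - 1 with hn
  have h3 : n ^ 3 = 0 := by
    ext x
    have h4 : ∀ x, n x = g x - x := fun x => rfl
    rw [pow_three, Module.End.mul_apply, Module.End.mul_apply, h4, g3 _ (by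
      rw [h4]; exact g2 _ (g1 x)), sub_self, LinearMap.zero_apply]
  have h5 : ((g : V →ₗ[F] V) : Module.End F V) ^ p = 1 := by
    rw [eq_add_of_sub_eq hn.symm, add_pow_char_of_commute p (Commute.one_right n),
      pow_eq_zero_of_le hp h3, one_pow, zero_add]
  ext x
  have := congrArg (fun f : Module.End F V => f x) h5
  simpa [Module.End.pow_apply, LinearEquiv.pow_apply] using this

theorem eq_one_of_normal {G : Type*} [Group G] {p : ℕ} {H : Subgroup G} (hOp : pCore p H = ⊥)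
    {N : Subgroup G} (hN : ∀ g ∈ H, ∀ n ∈ N, g * n * g⁻¹ ∈ N) (hP : IsPGroup p N) {t : G}
    (h1 : t ∈ H) (h2 : t ∈ N) : t = 1 := by
  have h3 : N.subgroupOf H ≤ pCore p H :=
    le_pCore' ⟨fun n hn g => hN g g.2 n hn⟩ (hP.comap_of_injective H.subtype H.subtype_injective)
  have h4 : (⟨t, h1⟩ : H) ∈ N.subgroupOf H := h2
  have h5 := h3 h4
  rw [hOp, Subgroup.mem_bot] at h5
  exact congrArg Subtype.val h5

theorem pair_isPGroup {p : ℕ} [Fact p.Prime] [CharP F p] (hp : 3 ≤ p) {v w : V} {φ ψ : Dual F V}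
    (h1 : φ v = 0) (h2 : ψ w = 0) (h3 : ψ v = 0) :
    IsPGroup p (Subgroup.closure ({transvection h1, transvection h2} : Set (V ≃ₗ[F] V))) := by
  refine (stab3_isPGroup hp (Submodule.span F {v, w}) (Submodule.span F {v})
    (Submodule.span_mono (by simp))).to_le ?_
  rw [Subgroup.closure_le]
  rintro t (rfl | rfl)
  · refine ⟨fun x => ?_, fun x _ => ?_, fun x hx => ?_⟩
    · simpa [tv_apply] using Submodule.smul_mem _ _ (Submodule.subset_span (by simp))
    · simpa [tv_apply] using Submodule.smul_mem _ _ (Submodule.subset_span (by simp))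
    · obtain ⟨c, rfl⟩ := Submodule.mem_span_singleton.1 hx
      simp [tv_apply, h1]
  · refine ⟨fun x => ?_, fun x hx => ?_, fun x hx => ?_⟩
    · simpa [tv_apply] using Submodule.smul_mem _ _ (Submodule.subset_span (by simp))
    · obtain ⟨c, d, rfl⟩ := Submodule.mem_span_pair.1 hx
      simp [tv_apply, h2, h3]
    · obtain ⟨c, rfl⟩ := Submodule.mem_span_singleton.1 hx
      simp [tv_apply, h3]

theorem ts_XH {p : ℕ} [Fact p.Prime] (hp : 3 ≤ p) {V : Type*} [AddCommGroup V] [Module (ZMod p) V]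
    [Finite V] {H : Subgroup (V ≃ₗ[ZMod p] V)} (hOp : pCore p H = ⊥) :
    TS (LinearMap.id : Dual (ZMod p) V →ₗ[ZMod p] V →ₗ[ZMod p] ZMod p) (XH H) := by
  have hadd : ∀ {v w φ}, XH H v φ → XH H w φ → XH H (v + w) φ := by
    rintro v w φ ⟨h1, h2⟩ ⟨h3, h4⟩
    refine ⟨by simp [h1, h3], ?_⟩
    convert H.mul_mem h2 h4 using 1
    ext x
    simp [tv_apply, h3, add_assoc, add_comm (φ x • v)]
  have hsm : ∀ {v φ} (c : ZMod p), XH H v φ → XH H (c • v) φ := by
    intro v φ c h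
    obtain ⟨n, rfl⟩ := ZMod.natCast_zmod_surjective c
    induction n with
    | zero => exact ⟨by simp, by convert H.one_mem; ext x; simp⟩
    | succ n ih => simpa [add_smul] using hadd ih h
  have : Finite (V ≃ₗ[ZMod p] V) := DFunLike.finite _
  refine ⟨fun h => h.1, hsm, fun {v φ} c h => ?_, hadd, ?_, fun {v φ w ψ} h1 h2 => ?_, ?_⟩
  · obtain ⟨h1, h2⟩ := hsm c h
    refine ⟨by simpa using h1, ?_⟩
    convert h2 using 1
    ext x
    simp [tv_apply, smul_smul, mul_comm]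
  · rintro v φ ψ ⟨h1, h2⟩ ⟨h3, h4⟩
    refine ⟨by simp [h1, h3], ?_⟩
    convert H.mul_mem h2 h4 using 1
    ext x
    simp [tv_apply, h1, add_assoc, add_smul, add_comm (φ x • v)]
  · have := h2.conj h1.2
    convert this using 1
    · rfl
    ext x
    simp [← LinearEquiv.coe_inv, tv_inv_apply, mul_comm]
  · intro v φ h hv hφ
    by_contra hcon
    push Not at hcon
    let I : Set (V ≃ₗ[ZMod p] V) := {t | ∃ (v : V) (φ : Dual (ZMod p) V) (h : φ v = 0),
      t = transvection h ∧ t ∈ H ∧ ∀ w ψ, XH H w ψ → φ w ≠ 0 → ψ v = 0}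
    have hI : ∀ x ∈ I, ∀ g ∈ H, g * x * g⁻¹ ∈ I := by
      rintro _ ⟨v, φ, h, rfl, h1, h2⟩ g hg
      refine ⟨g v, φ ∘ₗ (g⁻¹ : V ≃ₗ[ZMod p] V), by simpa using h, tv_conj g h _,
        H.mul_mem (H.mul_mem hg h1) (H.inv_mem hg), fun w ψ h3 h4 => ?_⟩
      simpa using h2 _ _ (h3.conj (H.inv_mem hg)) h4
    have hP : IsPGroup p (Subgroup.closure I) := by
      refine pgroup_closure_of_pairs_in H (fun t ht => ?_) hI ?_
      · obtain ⟨v, φ, h, -, h1, -⟩ := ht
        exact h1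
      · rintro _ ⟨v, φ, h, rfl, h1, h2⟩ _ ⟨w, ψ, h', rfl, h3, h4⟩
        by_cases h5 : φ w = 0
        · rw [Set.pair_comm]
          exact pair_isPGroup hp h' h h5
        · exact pair_isPGroup hp h h' (h2 w ψ ⟨h', h3⟩ h5)
    refine tv_ne_one h.1 hv hφ (eq_one_of_normal hOp (fun g hg n hn => ?_) hP h.2
      (Subgroup.subset_closure ⟨v, φ, h.1, rfl, h.2, hcon⟩))
    induction hn using Subgroup.closure_induction with
    | mem x hx => exact Subgroup.subset_closure (hI x hx g hg)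
    | one => simp
    | mul x y _ _ hx hy => simpa using Subgroup.mul_mem _ hx hy
    | inv x _ hx => simpa [mul_assoc] using Subgroup.inv_mem _ hx

/-! ### Components -/

/-- span of the centres -/
def WC (C : V → Dual F V → Prop) : Submodule F V := Submodule.span F {v | ∃ φ, C v φ}

/-- span of the axes -/
def PC (C : V → Dual F V → Prop) : Submodule F (Dual F V) := Submodule.span F {φ | ∃ v, C v φ}

/-- intersection of the axes -/
def CC (C : V → Dual F V → Prop) : Submodule F V := (PC C).dualCoannihilator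

/-- the group generated by the transvections of the component -/
def KC (C : V → Dual F V → Prop) : Subgroup (V ≃ₗ[F] V) :=
  Subgroup.closure {t | ∃ (v : V) (φ : Dual F V) (h : φ v = 0), C v φ ∧ t = transvection h}

variable {C : V → Dual F V → Prop}

theorem mem_WC {v : V} {φ : Dual F V} (h : C v φ) : v ∈ WC C := Submodule.subset_span ⟨φ, h⟩

theorem mem_PC {v : V} {φ : Dual F V} (h : C v φ) : φ ∈ PC C := Submodule.subset_span ⟨v, h⟩

theorem mem_KC {v : V} {φ : Dual F V} (h : C v φ) (h0 : φ v = 0) : transvection h0 ∈ KC C :=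
  Subgroup.subset_closure ⟨v, φ, h0, h, rfl⟩

theorem mem_CC {x : V} : x ∈ CC C ↔ ∀ v φ, C v φ → φ x = 0 := by
  rw [CC, Submodule.mem_dualCoannihilator]
  refine ⟨fun h v φ h1 => h φ (mem_PC h1), fun h φ hφ => ?_⟩
  induction hφ using Submodule.span_induction with
  | mem φ hφ => obtain ⟨v, hv⟩ := hφ; exact h v φ hv
  | zero => rfl
  | add _ _ _ _ h1 h2 => simp [h1, h2]
  | smul _ _ _ h1 => simp [h1]

theorem KC_sub_mem {g : V ≃ₗ[F] V} (hg : g ∈ KC C) (x : V) : g x - x ∈ WC C := by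
  have : KC C ≤ stab3 (WC C) (WC C) le_rfl ⊔ ⊤ := by simp
  induction hg using Subgroup.closure_induction generalizing x with
  | mem t ht =>
    obtain ⟨v, φ, h, h1, rfl⟩ := ht
    simpa [tv_apply] using Submodule.smul_mem _ _ (mem_WC h1)
  | one => simp
  | mul g h _ _ hg hh => simpa using Submodule.add_mem _ (hg (h x)) (hh x)
  | inv g _ hg => simpa using Submodule.neg_mem _ (hg (g⁻¹ x))

theorem KC_fix {g : V ≃ₗ[F] V} (hg : g ∈ KC C) {x : V} (hx : x ∈ CC C) : g x = x := by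
  induction hg using Subgroup.closure_induction with
  | mem t ht =>
    obtain ⟨v, φ, h, h1, rfl⟩ := ht
    simp [tv_apply, mem_CC.1 hx v φ h1]
  | one => simp
  | mul g h _ _ hg hh => simp [hg, hh]
  | inv g _ hg => apply g.injective; simp [hg]

theorem map_eq_of_mem {H : Subgroup (V ≃ₗ[F] V)} {W : Submodule F V}
    (h : ∀ g ∈ H, ∀ x ∈ W, g x ∈ W) {g : V ≃ₗ[F] V} (hg : g ∈ H) :
    W.map (g : V →ₗ[F] V) = W := by
  apply le_antisymm
  · rintro _ ⟨x, hx, rfl⟩
    exact h g hg x hx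
  · intro x hx
    exact ⟨g⁻¹ x, h _ (H.inv_mem hg) x hx, by simp⟩

theorem KC_map {g : V ≃ₗ[F] V} (hg : g ∈ KC C) : (WC C).map (g : V →ₗ[F] V) = WC C :=
  map_eq_of_mem (fun g hg x hx => by simpa using Submodule.add_mem _ (KC_sub_mem hg x) hx) hg

/-- restriction to the span of the centres -/
def rho (C : V → Dual F V → Prop) : KC C →* (WC C ≃ₗ[F] WC C) where
  toFun g := (g : V ≃ₗ[F] V).ofSubmodules _ _ (KC_map g.2)
  map_one' := by ext; rfl
  map_mul' := by intros; ext; rfl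

theorem rho_apply (g : KC C) (x : WC C) : (rho C g x : V) = (g : V ≃ₗ[F] V) x := rfl

theorem rho_range_le (S : Subgroup (WC C ≃ₗ[F] WC C))
    (hS : ∀ (v : WC C) (φ : Dual F V) (h : (φ ∘ₗ (WC C).subtype) v = 0), C v φ →
      transvection h ∈ S) : (rho C).range ≤ S := by
  rintro _ ⟨⟨g, hg⟩, rfl⟩
  induction hg using Subgroup.closure_induction with
  | mem t ht =>
    obtain ⟨v, φ, h, h1, rfl⟩ := ht
    convert hS ⟨v, mem_WC h1⟩ φ h h1 using 1
    ext x
    rfl
  | one => exact (map_one (rho C)).symm ▸ S.one_mem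
  | mul g h hg' hh' hg hh => exact (map_mul (rho C) ⟨g, hg'⟩ ⟨h, hh'⟩).symm ▸ S.mul_mem hg hh
  | inv g hg' hg => exact (map_inv (rho C) ⟨g, hg'⟩).symm ▸ S.inv_mem hg

theorem mem_rho_range {v : WC C} {f : Dual F (WC C)} (h : f v = 0) {φ : Dual F V}
    (h1 : ∀ x : WC C, φ x = f x) (h2 : (v : V) ≠ 0 → φ ≠ 0 → C v φ) :
    transvection h ∈ (rho C).range := by
  by_cases hv : (v : V) = 0
  · convert (rho C).range.one_mem
    ext x
    simp [tv_apply, hv]
  by_cases hφ : φ = 0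
  · convert (rho C).range.one_mem
    ext x
    simp [tv_apply, ← h1, hφ]
  refine ⟨⟨_, mem_KC (h2 hv hφ) (by rw [h1, h])⟩, ?_⟩
  ext x
  simp [rho_apply, tv_apply, h1]

theorem isCompl_of [FiniteDimensional F V] (h1 : ∀ x ∈ WC C, x ∈ CC C → x = 0)
    (h2 : ∀ φ ∈ PC C, (∀ x ∈ WC C, φ x = 0) → φ = 0) : IsCompl (WC C) (CC C) := by
  have h3 : Disjoint (WC C) (CC C) := Submodule.disjoint_def.2 h1
  have h4 : Disjoint (PC C) (WC C).dualAnnihilator :=
    Submodule.disjoint_def.2 fun φ h3 h4 => h2 φ h3 ((Submodule.mem_dualAnnihilator φ).1 h4)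
  have h5 := Submodule.finrank_add_finrank_le_of_disjoint h4
  have h6 := Subspace.finrank_add_finrank_dualAnnihilator_eq (WC C)
  have h7 := Subspace.finrank_add_finrank_dualCoannihilator_eq (PC C)
  rw [Subspace.dual_finrank_eq] at h5
  refine ⟨h3, codisjoint_iff.2 (Submodule.eq_top_of_disjoint _ _ ?_ h3)⟩
  unfold CC
  omega

theorem exists_ext [FiniteDimensional F V] (h : IsCompl (WC C) (CC C)) (f : Dual F (WC C)) :
    ∃ φ ∈ PC C, ∀ x : WC C, φ x = f x := by
  refine ⟨f ∘ₗ (WC C).projectionOnto _ h, ?_, fun x => by simp⟩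
  rw [← Subspace.dualCoannihilator_dualAnnihilator_eq (W := PC C), Submodule.mem_dualAnnihilator]
  intro x hx
  simp [Submodule.projectionOnto_apply_of_mem_right h hx]

/-- The conclusion for one component. -/
def Good (C : V → Dual F V → Prop) : Prop :=
  IsCompl (WC C) (CC C) ∧
    (((rho C).range : Set (WC C ≃ₗ[F] WC C)) = {f : WC C ≃ₗ[F] WC C | LinearMap.det (f : WC C →ₗ[F] WC C) = 1} ∨
      ∃ B : LinearMap.BilinForm F (WC C), B.IsAlt ∧ B.Nondegenerate ∧
        ((rho C).range : Set (WC C ≃ₗ[F] WC C)) = {f : WC C ≃ₗ[F] WC C | ∀ x y, B (f x) (f y) = B x y})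

theorem good_lin [FiniteDimensional F V]
    (h1 : ∀ x ∈ WC C, x ≠ 0 → ∃ φ ∈ PC C, φ x ≠ 0) (h2 : ∀ φ ∈ PC C, φ ≠ 0 → ∃ x ∈ WC C, φ x ≠ 0)
    (h3 : ∀ x ∈ WC C, x ≠ 0 → ∀ φ ∈ PC C, φ ≠ 0 → φ x = 0 → C x φ) : Good C := by
  have h4 : IsCompl (WC C) (CC C) := by
    refine isCompl_of (fun x hx hx' => ?_) (fun φ hφ hφ' => ?_)
    · by_contra h
      obtain ⟨φ, h5, h6⟩ := h1 x hx h
      exact h6 ((Submodule.mem_dualCoannihilator x).1 hx' φ h5)
    · by_contra h
      obtain ⟨x, h5, h6⟩ := h2 φ hφ h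
      exact h6 (hφ' x h5)
  refine ⟨h4, .inl (Set.Subset.antisymm ?_ fun g hg => sl_gen _ (fun v f h => ?_) hg)⟩
  · intro g hg
    have := rho_range_le (LinearEquiv.det : (WC C ≃ₗ[F] WC C) →* Fˣ).ker (fun v φ h _ => by
      rw [MonoidHom.mem_ker]
      ext
      rw [LinearEquiv.coe_det, transvection.coe_toLinearMap, LinearMap.transvection.det, h]
      simp) hg
    rw [MonoidHom.mem_ker] at this
    simpa [LinearEquiv.coe_det] using congrArg Units.val this
  · obtain ⟨φ, h5, h6⟩ := exists_ext h4 f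
    exact mem_rho_range h h6 fun hv hφ => h3 v v.2 hv φ h5 hφ (by rw [h6, h])

theorem good_empty [FiniteDimensional F V] (h : ∀ v φ, ¬ C v φ) : Good C := by
  have h1 : WC C = ⊥ := by simp [WC, h]
  have h2 : PC C = ⊥ := by simp [PC, h]
  refine good_lin ?_ ?_ ?_ <;> simp [h1, h2]

end Cfsg.Agent.Lib.Root.McL
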