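import Cfsg.Agent.Lib.Root.McL3

set_option autoImplicit false

/-! # McLaughlin's theorem: symplectic components and assembly -/

namespace Cfsg.Agent.Lib.Root.McL

open Module LinearEquiv

variable {F V : Type*} [Field F] [AddCommGroup V] [Module F V]

attribute [local simp] LinearMap.transvection.apply

/-- `H` is generated by non-trivial transvections -/
def Gen (H : Subgroup (V ≃ₗ[F] V)) : Prop :=
  ∀ P : (V ≃ₗ[F] V) → Prop, P 1 → (∀ g h, P g → P h → P (g * h)) →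
    (∀ (v : V) (φ : Dual F V) (h : φ v = 0), v ≠ 0 → φ ≠ 0 → transvection h ∈ H →
      P (transvection h)) → ∀ g ∈ H, P g

local notation "ev" => (LinearMap.id : Dual F V →ₗ[F] V →ₗ[F] F)

variable {H : Subgroup (V ≃ₗ[F] V)} {C : V → Dual F V → Prop}

theorem WC_apply_eq_zero {φ : Dual F V} (h : ∀ v ψ, C v ψ → φ v = 0) {x : V} (hx : x ∈ WC C) :
    φ x = 0 := by
  induction hx using Submodule.span_induction with
  | mem x hx => obtain ⟨ψ, hψ⟩ := hx; exact h x ψ hψ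
  | zero => simp
  | add _ _ _ _ h1 h2 => simp [h1, h2]
  | smul _ _ _ h1 => simp [h1]

theorem WC_inv (hG : Gen H) (hC : Comp ev (XH H) C) {g : V ≃ₗ[F] V} (hg : g ∈ H) :
    ∀ x ∈ WC C, g x ∈ WC C := by
  refine hG (fun g => ∀ x ∈ WC C, g x ∈ WC C) (by simp) (fun g h hg hh x hx => hg _ (hh x hx))
    (fun w ψ h hw hψ hH x hx => ?_) g hg
  by_cases h1 : C w ψ
  · exact Submodule.add_mem _ hx (Submodule.smul_mem _ _ (mem_WC h1))
  · have : ψ x = 0 := WC_apply_eq_zero (fun v φ h2 => by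
      by_contra h3
      exact h1 (hC.cl_r h2 ⟨h, hH⟩ hw h3)) hx
    simpa [this] using hx

theorem CC_inv (hG : Gen H) (hC : Comp ev (XH H) C) {g : V ≃ₗ[F] V} (hg : g ∈ H) :
    ∀ x ∈ CC C, g x ∈ CC C := by
  refine hG (fun g => ∀ x ∈ CC C, g x ∈ CC C) (by simp) (fun g h hg hh x hx => hg _ (hh x hx))
    (fun w ψ h hw hψ hH x hx => ?_) g hg
  by_cases h1 : C w ψ
  · simpa [mem_CC.1 hx w ψ h1] using hx
  · refine Submodule.add_mem _ hx (Submodule.smul_mem _ _ (mem_CC.2 fun v φ h2 => ?_))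
    by_contra h3
    exact h1 (hC.cl_l h2 ⟨h, hH⟩ hψ h3)

theorem stab3_conj {W R : Submodule F V} (hRW : R ≤ W) (hW : ∀ g ∈ H, ∀ x ∈ W, g x ∈ W)
    (hR : ∀ g ∈ H, ∀ x ∈ R, g x ∈ R) : ∀ g ∈ H, ∀ n ∈ stab3 W R hRW, g * n * g⁻¹ ∈ stab3 W R hRW := by
  rintro g hg n ⟨h1, h2, h3⟩
  refine ⟨fun x => ?_, fun x hx => ?_, fun x hx => ?_⟩
  · simpa using hW g hg _ (h1 (g⁻¹ x))
  · simpa using hR g hg _ (h2 (g⁻¹ x) (hW _ (H.inv_mem hg) x hx))
  · rw [LinearEquiv.mul_apply, LinearEquiv.mul_apply, h3 _ (hR _ (H.inv_mem hg) x hx)]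
    simp

theorem KC_le (hC : Comp ev (XH H) C) : KC C ≤ H := by
  rw [KC, Subgroup.closure_le]
  rintro _ ⟨v, φ, h, h1, rfl⟩
  exact (hC.sub h1).2

/-- isometry group of a bilinear form -/
def isoG {W : Type*} [AddCommGroup W] [Module F W] (B : LinearMap.BilinForm F W) :
    Subgroup (W ≃ₗ[F] W) where
  carrier := {f | ∀ x y, B (f x) (f y) = B x y}
  one_mem' := fun _ _ => rfl
  mul_mem' := fun {f g} hf hg x y => by rw [LinearEquiv.mul_apply, LinearEquiv.mul_apply, hf, hg]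
  inv_mem' := fun {f} hf x y => by rw [← hf]; simp

theorem good_symp [FiniteDimensional F V] {p : ℕ} [Fact p.Prime] [CharP F p] (hp : 3 ≤ p)
    (hOp : pCore p H = ⊥) (hG : Gen H) (h : TS ev (XH H)) (hC : Comp ev (XH H) C)
    (hL : ¬ Lin ev C) {v₀ : V} {φ₀ : Dual F V} (h0 : C v₀ φ₀) : Good C := by
  have three : ∀ a : F, ∃ c, c ≠ 0 ∧ c ≠ a := by
    intro a
    by_cases ha : a = 1
    · refine ⟨-1, by simp, fun h => ?_⟩
      have h2 : ((2 : ℕ) : F) = 0 := by rw [ha] at h; push_cast; linear_combination -h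
      rw [CharP.cast_eq_zero_iff F p] at h2
      have := Nat.le_of_dvd two_pos h2
      omega
    · exact ⟨1, one_ne_zero, Ne.symm ha⟩
  obtain ⟨U, hU1, hU2, hU3, hU4⟩ := hC.symp h hL h0 three
  simp only [LinearMap.id_coe, id_eq] at hU1 hU4
  have a1 : ∀ x ∈ U, x.1 ∈ WC C ∧ x.2 ∈ PC C := by
    intro x hx
    have := hU3 hx
    clear hx
    induction this using Submodule.span_induction with
    | mem x hx => exact ⟨mem_WC hx, mem_PC hx⟩
    | zero => simp
    | add _ _ _ _ h1 h2 => exact ⟨add_mem h1.1 h2.1, add_mem h1.2 h2.2⟩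
    | smul _ _ _ h1 => exact ⟨Submodule.smul_mem _ _ h1.1, Submodule.smul_mem _ _ h1.2⟩
  have a2 : ∀ w ∈ WC C, ∃ ψ, (w, ψ) ∈ U := by
    intro w hw
    induction hw using Submodule.span_induction with
    | mem x hx =>
      obtain ⟨φ, hφ⟩ := hx
      obtain ⟨c, -, hc⟩ := hU2 x φ hφ
      exact ⟨_, hc⟩
    | zero => exact ⟨0, U.zero_mem⟩
    | add _ _ _ _ h1 h2 =>
      obtain ⟨_, h1⟩ := h1
      obtain ⟨_, h2⟩ := h2
      exact ⟨_, U.add_mem h1 h2⟩
    | smul c _ _ h1 =>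
      obtain ⟨_, h1⟩ := h1
      exact ⟨_, U.smul_mem c h1⟩
  have a3 : ∀ ψ ∈ PC C, ∃ w, (w, ψ) ∈ U := by
    intro w hw
    induction hw using Submodule.span_induction with
    | mem φ hx =>
      obtain ⟨x, hφ⟩ := hx
      obtain ⟨c, hc0, hc⟩ := hU2 x φ hφ
      exact ⟨c⁻¹ • x, by simpa [smul_smul, hc0] using U.smul_mem c⁻¹ hc⟩
    | zero => exact ⟨0, U.zero_mem⟩
    | add _ _ _ _ h1 h2 =>
      obtain ⟨_, h1⟩ := h1
      obtain ⟨_, h2⟩ := h2
      exact ⟨_, U.add_mem h1 h2⟩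
    | smul c _ _ h1 =>
      obtain ⟨_, h1⟩ := h1
      exact ⟨_, U.smul_mem c h1⟩
  have skew : ∀ x ∈ U, ∀ y ∈ U, x.2 y.1 = -y.2 x.1 := by
    intro x hx y hy
    have := hU1 _ (U.add_mem hx hy)
    simp only [Prod.snd_add, Prod.fst_add, LinearMap.add_apply, map_add, hU1 x hx, hU1 y hy] at this
    linear_combination this
  have rad : ∀ r ∈ U, (∀ y ∈ U, r.2 y.1 = 0) → r = 0 := by
    rintro ⟨r₁, r₂⟩ hr hr0
    simp only at hr0
    obtain ⟨c, hc0, hc⟩ := hU2 _ _ h0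
    have h1 : C v₀ (c • φ₀) := by simpa using hC.smul h h0 one_ne_zero hc0
    generalize c • φ₀ = φ at hc h1
    obtain ⟨w, ψ, h2, h3, -⟩ := hC.ni h h1
    simp only [LinearMap.id_coe, id_eq] at h3
    obtain ⟨d, -, hd⟩ := hU2 _ _ h2
    have h4 : C (v₀ + r₁) (φ + r₂) := hU4 _ (U.add_mem hc hr) ⟨_, hd, by simpa [hr0 _ hd] using h3⟩
    have h5 : r₁ ∈ CC C := mem_CC.2 fun v χ h5 => by
      obtain ⟨e, he0, he⟩ := hU2 _ _ h5
      simpa [hr0 _ he, he0] using skew _ he _ hr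
    have h6 : ∀ z ∈ WC C, r₂ z = 0 := fun z hz => by
      obtain ⟨χ, hχ⟩ := a2 z hz
      exact hr0 _ hχ
    have h7 : φ v₀ = 0 := h.zero (hC.sub h1)
    have h8 : (φ + r₂) (v₀ + r₁) = 0 := h.zero (hC.sub h4)
    have h9 : φ r₁ = 0 := mem_CC.1 h5 _ _ h1
    have hK : (transvection h7)⁻¹ * transvection h8 ∈ KC C :=
      mul_mem (inv_mem (mem_KC h1 h7)) (mem_KC h4 h8)
    have h10 : (transvection h7)⁻¹ * transvection h8 = 1 := by
      refine eq_one_of_normal hOp (stab3_conj (W := WC C) (R := WC C ⊓ CC C) inf_le_left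
        (fun g hg => WC_inv hG hC hg)
        (fun g hg x hx => ⟨WC_inv hG hC hg x hx.1, CC_inv hG hC hg x hx.2⟩))
        (stab3_isPGroup hp _ _ _) (KC_le hC hK)
        ⟨KC_sub_mem hK, fun z hz => ?_, fun z hz => KC_fix hK hz.2⟩
      have : ((transvection h7)⁻¹ * transvection h8) z - z = φ z • r₁ := by
        rw [LinearEquiv.mul_apply, tv_inv_apply, tv_apply]
        simp [h6 z hz, h7, h9]
        abel
      rw [this]
      exact Submodule.smul_mem _ _ ⟨(a1 _ hr).1, h5⟩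
    rw [inv_mul_eq_one] at h10
    have h11 : ∀ z, φ z • v₀ = (φ + r₂) z • (v₀ + r₁) := fun z => by
      have := congrArg (fun g : V ≃ₗ[F] V => g z) h10
      simpa only [tv_apply, add_right_inj] using this
    have h12 : r₁ = 0 := by
      have := h11 w
      simpa [h6 w (mem_WC h2), h3] using this
    have h13 : r₂ = 0 := by
      ext z
      have := h11 z
      simpa [h12, add_smul, hC.ne_l h1] using this
    simp [h12, h13]
  have hcompl : IsCompl (WC C) (CC C) := by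
    refine isCompl_of (fun x hx hx' => ?_) (fun φ hφ hφ' => ?_)
    · obtain ⟨ψ, hψ⟩ := a2 x hx
      refine congrArg Prod.fst (rad _ hψ fun y hy => ?_)
      rw [skew _ hψ _ hy, (Submodule.mem_dualCoannihilator x).1 hx' _ (a1 y hy).2, neg_zero]
    · obtain ⟨w, hw⟩ := a3 φ hφ
      exact congrArg Prod.snd (rad _ hw fun y hy => hφ' _ (a1 y hy).1)
  let π : U →ₗ[F] WC C :=
    LinearMap.codRestrict _ (LinearMap.fst F V (Dual F V) ∘ₗ U.subtype) fun x => (a1 x x.2).1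
  have hπ : Function.Bijective π := by
    refine ⟨LinearMap.ker_eq_bot.1 (LinearMap.ker_eq_bot'.2 fun x hx =>
      Subtype.ext (rad _ x.2 fun y hy => ?_)), fun w => ?_⟩
    · have : (x : V × Dual F V).1 = 0 := congrArg Subtype.val hx
      rw [skew _ x.2 _ hy, this, map_zero, neg_zero]
    · obtain ⟨ψ, hψ⟩ := a2 w w.2
      exact ⟨⟨_, hψ⟩, rfl⟩
  let e := LinearEquiv.ofBijective π hπ
  let β : WC C →ₗ[F] Dual F V := LinearMap.snd F V (Dual F V) ∘ₗ U.subtype ∘ₗ e.symm.toLinearMap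
  have hβ : ∀ w : WC C, ((w : V), β w) ∈ U := fun w => by
    have h1 : ((e.symm w : U) : V × Dual F V).1 = w :=
      congrArg Subtype.val (e.apply_symm_apply w)
    rw [← h1]
    exact (e.symm w).2
  have hβ' : ∀ (w : WC C) (ψ : Dual F V), ((w : V), ψ) ∈ U → β w = ψ := fun w ψ hw => by
    have h1 : e.symm w = ⟨_, hw⟩ := by rw [LinearEquiv.symm_apply_eq]; rfl
    simp [β, h1]
  let B : LinearMap.BilinForm F (WC C) := β.compl₂ (WC C).subtype
  have hB : ∀ x y, B x y = β x y := fun _ _ => rfl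
  have hA : B.IsAlt := fun x => hU1 _ (hβ x)
  have hBl : ∀ x, (∀ y, B x y = 0) → x = 0 := fun x hx =>
    Subtype.ext (congrArg Prod.fst (rad _ (hβ x) fun y hy => hx ⟨y.1, (a1 y hy).1⟩))
  have hN : B.Nondegenerate :=
    ⟨hBl, fun y hy => hBl y fun x => by rw [← hA.neg_eq, hy, neg_zero]⟩
  refine ⟨hcompl, .inr ⟨B, hA, hN, Set.Subset.antisymm (fun g hg => ?_)
    fun g hg => sp_gen B hA hN _ (fun v c hv => ?_) hg⟩⟩
  · refine rho_range_le (isoG B) (fun v φ hv h1 x y => ?_) hg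
    obtain ⟨c, hc0, hc⟩ := hU2 _ _ h1
    have h2 : ∀ z : WC C, B v z = c * φ z := fun z => by rw [hB, hβ' v _ hc]; rfl
    simp only [tv_apply, map_add, _root_.map_smul, LinearMap.add_apply, LinearMap.smul_apply,
      smul_eq_mul, hA.self_eq_zero, ← hA.neg_eq v x, h2, LinearMap.comp_apply,
      Submodule.subtype_apply]
    ring
  · refine mem_rho_range hv (φ := c • β v) (fun x => rfl) fun h1 h2 => ?_
    have h3 : C v (β v) := hU4 _ (hβ v) (by
      by_contra hcon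
      push Not at hcon
      exact h1 (congrArg Prod.fst (rad _ (hβ v) hcon)))
    simpa using hC.smul h h3 one_ne_zero (d := c) (by rintro rfl; simp at h2)

theorem good [FiniteDimensional F V] {p : ℕ} [Fact p.Prime] [CharP F p] (hp : 3 ≤ p)
    (hOp : pCore p H = ⊥) (hG : Gen H) (h : TS ev (XH H)) (hC : Comp ev (XH H) C) : Good C := by
  by_cases h0 : ∀ v φ, ¬ C v φ
  · exact good_empty h0
  push Not at h0
  obtain ⟨v₀, φ₀, h0⟩ := h0
  by_cases hL : Lin ev C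
  swap
  · exact good_symp hp hOp hG h hC hL h0
  refine good_lin (fun x hx hx0 => ?_) (fun φ hφ hφ0 => ?_)
    fun x hx hx0 φ hφ hφ0 h1 => hC.lin_all h hL hx hx0 hφ hφ0 h1
  · obtain ⟨φ, h1⟩ := hC.lin_point h hL hx hx0
    obtain ⟨w, ψ, h2, -, h3⟩ := hC.ni h h1
    exact ⟨ψ, mem_PC h2, h3⟩
  · obtain ⟨v, h1⟩ := hC.lin_axis h hL hφ hφ0
    obtain ⟨w, ψ, h2, h3, -⟩ := hC.ni h h1
    exact ⟨w, mem_WC h2, h3⟩

/-! ### The components -/

section comp
variable {Φ : Type*} [AddCommGroup Φ] [Module F Φ] (b : Φ →ₗ[F] V →ₗ[F] F) (X : V → Φ → Prop)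

/-- adjacency -/
def Rel (x y : V × Φ) : Prop :=
  X y.1 y.2 ∧ y.1 ≠ 0 ∧ y.2 ≠ 0 ∧ (b x.2 y.1 ≠ 0 ∨ b y.2 x.1 ≠ 0)

/-- the component of `x` -/
def comp (x : V × Φ) (w : V) (ψ : Φ) : Prop :=
  (X x.1 x.2 ∧ x.1 ≠ 0 ∧ x.2 ≠ 0) ∧ Relation.ReflTransGen (Rel b X) x (w, ψ)

theorem comp_isComp (x : V × Φ) : Comp b X (comp b X x) := by
  have h1 : ∀ y : V × Φ, comp b X x y.1 y.2 → X y.1 y.2 ∧ y.1 ≠ 0 ∧ y.2 ≠ 0 := by
    rintro y ⟨h1, h2⟩
    rcases Relation.ReflTransGen.cases_tail h2 with h | ⟨z, -, h⟩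
    · rw [show y = x from h]; exact h1
    · exact ⟨h.1, h.2.1, h.2.2.1⟩
  refine ⟨fun h => (h1 (_, _) h).1, fun h => (h1 (_, _) h).2.1, fun h => (h1 (_, _) h).2.2,
    fun h h2 h3 h4 => ⟨h.1, h.2.tail ⟨h2, ne_r_of h4, h3, .inl h4⟩⟩,
    fun h h2 h3 h4 => ⟨h.1, h.2.tail ⟨h2, h3, ne_l_of h4, .inr h4⟩⟩, fun P hP => ?_⟩
  have h2 : ∀ y : V × Φ, comp b X x y.1 y.2 → (P x.1 x.2 ↔ P y.1 y.2) := by
    rintro y ⟨h2, h3⟩
    change Relation.ReflTransGen (Rel b X) x y at h3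
    induction h3 with
    | refl => rfl
    | @tail y z h3 h4 ih =>
      have hy : comp b X x y.1 y.2 := ⟨h2, h3⟩
      have hz : comp b X x z.1 z.2 := ⟨h2, h3.tail h4⟩
      exact ih.trans ⟨hP _ _ _ _ hy hz h4.2.2.2, hP _ _ _ _ hz hy h4.2.2.2.symm⟩
  exact fun v φ w ψ h3 h4 h5 => (h2 (w, ψ) h4).1 ((h2 (v, φ) h3).2 h5)

variable {b X}

theorem Comp.eq_of {C C' : V → Φ → Prop} (hC : Comp b X C) (hC' : Comp b X C') {v : V} {φ : Φ}
    (h : C v φ) (h' : C' v φ) : C = C' := by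
  have key : ∀ {C C' : V → Φ → Prop}, Comp b X C → Comp b X C' → C v φ → C' v φ →
      ∀ w ψ, C w ψ → C' w ψ := fun hC hC' h h' w ψ h1 =>
    hC.conn _ (fun v φ w ψ _ h2 h3 h4 => h3.elim (hC'.cl_l h4 (hC.sub h2) (hC.ne_r h2))
      (hC'.cl_r h4 (hC.sub h2) (hC.ne_l h2))) v φ w ψ h h1 h'
  ext w ψ
  exact ⟨key hC hC' h h' w ψ, key hC' hC h' h w ψ⟩

end comp

theorem WC_le_CC {C C' : V → Dual F V → Prop} (hC : Comp ev (XH H) C) (hC' : Comp ev (XH H) C')
    (hne : C ≠ C') : WC C ≤ CC C' := by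
  intro x hx
  refine mem_CC.2 fun w ψ h1 => WC_apply_eq_zero (fun v φ h2 => ?_) hx
  by_contra h3
  exact hne (hC.eq_of hC' h2 (hC'.cl_l h1 (hC.sub h2) (hC.ne_r h2) h3))

theorem assemble {n : ℕ} (hG : Gen H) (C : Fin n → V → Dual F V → Prop)
    (hC : ∀ j, Comp ev (XH H) (C j)) (hinj : Function.Injective C)
    (hcov : ∀ v φ, XH H v φ → v ≠ 0 → φ ≠ 0 → ∃ j, C j v φ)
    (hc : ∀ j, IsCompl (WC (C j)) (CC (C j))) (W : Fin (n + 1) → Submodule F V)
    (hW0 : W 0 = ⨅ j, CC (C j)) (hW : ∀ j : Fin n, W j.succ = WC (C j)) :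
    DirectSum.IsInternal W ∧
      (∀ h ∈ H, ∀ i, (W i).map (h : V →ₗ[F] V) = W i) ∧
      (∀ j, KC (C j) ≤ H ∧ ((KC (C j)).subgroupOf H).Normal) ∧ ⨆ j, KC (C j) = H ∧
      (∀ j, KC (C j) ⊓ (⨆ j' ∈ {j' : Fin n | j' ≠ j}, KC (C j')) = ⊥) ∧
      (∀ j j', j ≠ j' → ∀ a ∈ KC (C j), ∀ b ∈ KC (C j'), a * b = b * a) ∧
      (∀ j, ∀ h ∈ KC (C j), ∀ i : Fin (n + 1), i ≠ j.succ → ∀ v ∈ W i, h v = v) := by
  have hle : ∀ j j', j ≠ j' → WC (C j) ≤ CC (C j') := fun j j' h =>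
    WC_le_CC (hC j) (hC j') fun e => h (hinj e)
  have hle' : ∀ (j : Fin n) (i : Fin (n + 1)), i ≠ j.succ → W i ≤ CC (C j) := by
    intro j i hi
    induction i using Fin.cases with
    | zero => rw [hW0]; exact iInf_le _ j
    | succ i => rw [hW]; exact hle i j fun e => hi (by rw [e])
  have hcomm : ∀ j j', j ≠ j' → ∀ a ∈ KC (C j), ∀ b ∈ KC (C j'), a * b = b * a := by
    intro j j' h a ha b hb
    ext x
    have h1 := KC_fix ha (hle j' j h.symm (KC_sub_mem hb x))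
    have h2 := KC_fix hb (hle j j' h (KC_sub_mem ha x))
    rw [map_sub, sub_eq_iff_eq_add] at h1 h2
    rw [LinearEquiv.mul_apply, LinearEquiv.mul_apply, h1, h2]
    abel
  have hsup : ⨆ j, KC (C j) = H := by
    refine le_antisymm (iSup_le fun j => KC_le (hC j)) fun g hg => ?_
    refine hG (fun g => g ∈ ⨆ j, KC (C j)) (one_mem _) (fun _ _ => mul_mem)
      (fun v φ h hv hφ hH => ?_) g hg
    obtain ⟨j, hj⟩ := hcov v φ ⟨h, hH⟩ hv hφ
    exact Subgroup.mem_iSup_of_mem j (mem_KC hj h)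
  let π : Fin n → V →ₗ[F] V := fun j => (WC (C j)).projection _ (hc j)
  refine ⟨DirectSum.isInternal_submodule_of_iSupIndep_of_iSup_eq_top (fun i => ?_) ?_,
    fun g hg i => map_eq_of_mem (fun g hg x hx => ?_) hg, fun j => ⟨KC_le (hC j), ?_⟩, hsup,
    fun j => ?_, hcomm, fun j h hh i hi v hv => KC_fix hh (hle' j i hi hv)⟩
  · induction i using Fin.cases with
    | succ j =>
      rw [hW]
      exact (hc j).disjoint.mono_right (iSup₂_le fun i hi => hle' j i hi)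
    | zero =>
      rw [Submodule.disjoint_def]
      intro x hx hx'
      have h1 : (⨆ i, ⨆ (_ : i ≠ 0), W i) ≤ LinearMap.eqLocus (∑ j, π j) LinearMap.id := by
        refine iSup₂_le fun i hi => ?_
        obtain ⟨j, rfl⟩ := Fin.exists_succ_eq.2 hi
        intro y hy
        rw [hW] at hy
        rw [LinearMap.mem_eqLocus, LinearMap.sum_apply, Finset.sum_eq_single j
          (fun j' _ hj => Submodule.projection_apply_of_mem_right _ (hle j j' hj.symm hy)) (by simp)]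
        exact Submodule.projection_apply_of_mem_left _ hy
      have h2 := h1 hx'
      rw [LinearMap.mem_eqLocus, LinearMap.sum_apply, Finset.sum_eq_zero] at h2
      · exact h2.symm
      · intro j _
        rw [hW0] at hx
        exact Submodule.projection_apply_of_mem_right _ ((Submodule.mem_iInf _).1 hx j)
  · rw [eq_top_iff]
    intro x _
    have h1 : ∑ j, π j x ∈ ⨆ i, W i := Submodule.sum_mem _ fun j _ =>
      Submodule.mem_iSup_of_mem j.succ (by rw [hW]; exact Submodule.projection_apply_mem _ _)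
    have h2 : x - ∑ j, π j x ∈ W 0 := by
      rw [hW0, Submodule.mem_iInf]
      intro j
      rw [← Finset.add_sum_erase _ _ (Finset.mem_univ j), ← sub_sub]
      refine Submodule.sub_mem _ ?_ (Submodule.sum_mem _ fun j' hj' =>
        hle j' j (Finset.ne_of_mem_erase hj') (Submodule.projection_apply_mem _ _))
      rw [← Submodule.projection_eq_self_sub_projection]
      exact Submodule.projection_apply_mem _ _
    simpa using Submodule.add_mem _ (Submodule.mem_iSup_of_mem 0 h2) h1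
  · induction i using Fin.cases with
    | succ j => rw [hW] at hx ⊢; exact WC_inv hG (hC j) hg x hx
    | zero =>
      rw [hW0, Submodule.mem_iInf] at hx ⊢
      exact fun j => CC_inv hG (hC j) hg x (hx j)
  · rw [Subgroup.normal_subgroupOf_iff_le_normalizer (KC_le (hC j)), ← hsup]
    refine iSup_le fun j' => ?_
    by_cases h : j' = j
    · rw [h]; exact Subgroup.le_normalizer
    · exact fun g hg => Subgroup.centralizer_le_normalizer _
        (Subgroup.mem_centralizer_iff.2 fun a ha => hcomm j j' (Ne.symm h) a ha g hg)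
  · rw [eq_bot_iff]
    rintro g ⟨h1, h2⟩
    have h3 : (⨆ j' ∈ {j' : Fin n | j' ≠ j}, KC (C j')) ≤
        fixingSubgroup (V ≃ₗ[F] V) (WC (C j) : Set V) :=
      iSup₂_le fun j' hj' g hg => (mem_fixingSubgroup_iff _).2 fun x hx =>
        KC_fix hg (hle j j' (Ne.symm hj') hx)
    have h4 := (mem_fixingSubgroup_iff _).1 (h3 h2)
    rw [Subgroup.mem_bot]
    ext x
    rw [← Submodule.projection_add_projection_eq_self (hc j) x, map_add,
      KC_fix h1 (Submodule.projection_apply_mem _ _)]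
    exact congrArg (· + _) (h4 _ (Submodule.projection_apply_mem _ _))

end Cfsg.Agent.Lib.Root.McL
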